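import Mathlib
import Cfsg.Agent.ClassicalGeometry.TwoFamilies

/-!
`U` of dimension 8 over a field of characteristic 2 with a quadratic form `Q` (polar form `B`
nondegenerate), `i` an isometry with `i ^ 2 = z`, `z ^ 2 = 1`.  If a space `W` of infinitesimal
similitudes has `(1 + Ad z) W` of dimension at least 12, then `z + 1` has rank 4.
-/

namespace Cfsg.Agent.H736.L34

open Module

variable {K : Type*} [Field K]

/-- If `f` vanishes on the kernel of `g` in `W` then `dim f(W)` is at most `dim G`. -/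
theorem finrank_map_le {E F G : Type*} [AddCommGroup E] [Module K E] [AddCommGroup F] [Module K F]
    [AddCommGroup G] [Module K G] [FiniteDimensional K E] [FiniteDimensional K G]
    (W : Submodule K E) (f : E →ₗ[K] F) (g : E →ₗ[K] G) (h : ∀ x ∈ W, g x = 0 → f x = 0) :
    finrank K (W.map f) ≤ finrank K G := by
  have h1 := LinearMap.finrank_range_add_finrank_ker (f.domRestrict W)
  have h2 := LinearMap.finrank_range_add_finrank_ker (g.domRestrict W)
  have h3 : LinearMap.ker (g.domRestrict W) ≤ LinearMap.ker (f.domRestrict W) := by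
    rintro ⟨x, hx⟩ hx'
    rw [LinearMap.mem_ker, LinearMap.domRestrict_apply] at hx' ⊢
    exact h x hx hx'
  have h4 := Submodule.finrank_mono h3
  have h5 := Submodule.finrank_le (LinearMap.range (g.domRestrict W))
  have h6 : LinearMap.range (f.domRestrict W) = W.map f := LinearMap.range_domRestrict _ _
  rw [h6] at h1
  omega

variable {U : Type*} [AddCommGroup U] [Module K U]

theorem add_self' [CharP K 2] (x : U) : x + x = 0 := by
  have : (2 : K) • x = 0 := by
    rw [show (2 : K) = 0 from CharP.cast_eq_zero K 2, zero_smul]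
  rw [← two_smul K x, this]

section Main

variable [CharP K 2] (B : LinearMap.BilinForm K U) (hB : B.IsAlt)

include hB in
theorem symm (x y : U) : B x y = B y x := by
  have h : -B x y = B y x := LinearMap.IsAlt.neg hB x y
  rw [← h, CharTwo.neg_eq]

variable (Q : U → K) (hQ : ∀ x y, Q (x + y) = Q x + Q y + B x y)
  (i z : U →ₗ[K] U) (hi : ∀ x, i (i x) = z x) (hz : ∀ x, z (z x) = x)
  (hBi : ∀ x y, B (i x) (i y) = B x y) (hQz : ∀ x, Q (z x) = Q x)

omit [CharP K 2] in
include hi hBi in
theorem Bz (x y : U) : B (z x) (z y) = B x y := by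
  rw [← hi, ← hi, hBi, hBi]

include hz in
theorem eta_eta (x : U) : (z + 1 : U →ₗ[K] U) ((z + 1 : U →ₗ[K] U) x) = 0 := by
  simp only [LinearMap.add_apply, Module.End.one_apply, map_add, hz]
  rw [show x + z x + (z x + x) = (x + x) + (z x + z x) by abel, add_self' (K := K) x,
    add_self' (K := K) (z x), add_zero]

include hi hz hBi in
omit [CharP K 2] in
theorem B_eta (x y : U) : B ((z + 1 : U →ₗ[K] U) x) y = B x ((z + 1 : U →ₗ[K] U) y) := by
  simp only [LinearMap.add_apply, Module.End.one_apply, map_add]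
  rw [← Bz B i z hi hBi x (z y), hz]

include hB hi hz hBi in
/-- The rank of `z + 1` is even. -/
theorem even_rank [FiniteDimensional K U] (hn : B.Nondegenerate) :
    ∃ m, finrank K (LinearMap.range (z + 1 : U →ₗ[K] U)) = m + m := by
  let G : LinearMap.BilinForm K U :=
    (B.compl₁₂ (z + 1 : U →ₗ[K] U) i)
  have hG : ∀ x y, G x y = B ((z + 1 : U →ₗ[K] U) x) (i y) := fun x y => rfl
  have hA : G.IsAlt := by
    intro x
    rw [hG, LinearMap.add_apply, Module.End.one_apply, map_add, LinearMap.add_apply]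
    rw [← hi x, hBi, symm B hB x (i x)]
    exact CharTwo.add_self_eq_zero _
  obtain ⟨m, hm⟩ := Cfsg.Agent.ClassicalGeometry.TwoFamilies.exists_finrank_eq_ker_add G hA
  have hker : LinearMap.ker G = LinearMap.ker (z + 1 : U →ₗ[K] U) := by
    ext x
    rw [LinearMap.mem_ker, LinearMap.mem_ker]
    constructor
    · intro h
      apply hn.1
      intro y
      have h1 : G x (i (z y)) = 0 := by rw [h]; rfl
      rw [hG, hi, hz] at h1
      exact h1
    · intro h
      ext y
      rw [hG, h]
      simp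
  have h1 := LinearMap.finrank_range_add_finrank_ker (z + 1 : U →ₗ[K] U)
  rw [hker] at hm
  exact ⟨m, by omega⟩

variable (D : Module.End K U →ₗ[K] Module.End K U) (hD : ∀ x u, D x u = z (x (z u)) + x u)
  (W : Submodule K (Module.End K U)) (hW : ∀ x ∈ W, ∃ c : K, ∀ u, B (x u) u = c * Q u)

omit [CharP K 2] in
include hi hz hBi hD in
theorem B_D (x : Module.End K U) (u v : U) : B (D x u) v = B (x (z u)) (z v) + B (x u) v := by
  rw [hD, map_add, LinearMap.add_apply]
  congr 1
  rw [← Bz B i z hi hBi, hz]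

include hi hz hBi hD hQz in
theorem B_D_self {x : Module.End K U} {c : K} (hx : ∀ u, B (x u) u = c * Q u) (u : U) :
    B (D x u) u = 0 := by
  rw [B_D B i z hi hz hBi D hD, hx, hx, hQz]
  exact CharTwo.add_self_eq_zero _

include hi hz hBi hD hQz in
theorem B_D_symm {x : Module.End K U} {c : K} (hx : ∀ u, B (x u) u = c * Q u) (u v : U) :
    B (D x u) v = B (D x v) u := by
  have h := B_D_self B Q i z hi hz hBi hQz D hD hx (u + v)
  simp only [map_add, LinearMap.add_apply] at h
  rw [B_D_self B Q i z hi hz hBi hQz D hD hx, B_D_self B Q i z hi hz hBi hQz D hD hx, zero_add,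
    add_zero] at h
  exact (CharTwo.add_eq_zero.1 h).symm

include hi hz hBi hD in
/-- The value on a fixed vector `v` of `z`. -/
theorem B_D_fix (x : Module.End K U) (u v : U) (hv : (z + 1 : U →ₗ[K] U) v = 0) :
    B (D x u) v = B (x ((z + 1 : U →ₗ[K] U) u)) v := by
  have hzv : z v = v := by
    have h1 : z v + v = 0 := hv
    have h2 := add_self' (K := K) v
    exact add_right_cancel (h1.trans h2.symm)
  rw [B_D B i z hi hz hBi D hD, hzv]
  simp only [LinearMap.add_apply, Module.End.one_apply, map_add]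

include hi hz hBi hD in
theorem B_D_fix_fix (x : Module.End K U) (u v : U) (hu : (z + 1 : U →ₗ[K] U) u = 0)
    (hv : (z + 1 : U →ₗ[K] U) v = 0) : B (D x u) v = 0 := by
  rw [B_D_fix B i z hi hz hBi D hD x u v hv, hu]
  simp

omit [CharP K 2] in
include hQ in
theorem B_x_symm {x : Module.End K U} {c : K} (hx : ∀ u, B (x u) u = c * Q u) (u v : U) :
    B (x u) v + B (x v) u = c * B u v := by
  have h := hx (u + v)
  rw [hQ] at h
  simp only [map_add, LinearMap.add_apply] at h
  rw [hx, hx] at h
  linear_combination h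

include hQ hi hz hBi hQz hD hW in
theorem rank_two [FiniteDimensional K U] (hU : finrank K U = 8) (hn : B.Nondegenerate)
    (h2 : finrank K (LinearMap.range (z + 1 : U →ₗ[K] U)) = 2) :
    finrank K (W.map D) ≤ 11 := by
  set e : U →ₗ[K] U := z + 1 with he
  have hee : ∀ x, e (e x) = 0 := eta_eta (K := K) z hz
  -- a vector with `Q ≠ 0`
  obtain ⟨u0, hu0⟩ : ∃ u, Q u ≠ 0 := by
    by_contra hcon
    push Not at hcon
    have h0 : ∀ x : U, x = 0 := by
      intro x
      apply hn.1
      intro y
      have := hQ x y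
      rw [hcon, hcon, hcon, zero_add, zero_add] at this
      exact this.symm
    have : finrank K U = 0 := by
      have : Subsingleton U := ⟨fun a b => by rw [h0 a, h0 b]⟩
      exact finrank_zero_of_subsingleton
    omega
  -- a basis of the range
  let b := Module.finBasisOfFinrankEq K (LinearMap.range e) h2
  obtain ⟨c1, hc1⟩ := (b 0).2
  obtain ⟨c2, hc2⟩ := (b 1).2
  have hspan : ∀ u, ∃ s t : K, e u = s • e c1 + t • e c2 := by
    intro u
    refine ⟨b.repr ⟨e u, LinearMap.mem_range_self e u⟩ 0,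
      b.repr ⟨e u, LinearMap.mem_range_self e u⟩ 1, ?_⟩
    have h := b.sum_repr ⟨e u, LinearMap.mem_range_self e u⟩
    rw [Fin.sum_univ_two] at h
    have h' := congrArg Subtype.val h
    simp only [Submodule.coe_add, Submodule.coe_smul] at h'
    rw [hc1, hc2]
    exact h'.symm
  -- a complement of the range in the kernel
  obtain ⟨M, hM⟩ := Submodule.exists_isCompl (LinearMap.range e)
  have hle : LinearMap.range e ≤ LinearMap.ker e := by
    rintro _ ⟨x, rfl⟩
    exact hee x
  have hsup : LinearMap.range e ⊔ (M ⊓ LinearMap.ker e) = LinearMap.ker e := by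
    rw [← sup_inf_assoc_of_le M hle, hM.sup_eq_top, top_inf_eq]
  have hinf : LinearMap.range e ⊓ (M ⊓ LinearMap.ker e) = ⊥ := by
    rw [← inf_assoc, hM.inf_eq_bot, bot_inf_eq]
  have hrk := LinearMap.finrank_range_add_finrank_ker e
  have hdim := Submodule.finrank_sup_add_finrank_inf_eq (LinearMap.range e) (M ⊓ LinearMap.ker e)
  rw [hsup, hinf, finrank_bot] at hdim
  have hK : finrank K ↥(M ⊓ LinearMap.ker e) = 4 := by omega
  -- the map
  let S : Submodule K U := M ⊓ LinearMap.ker e
  let g : Module.End K U →ₗ[K] (K × K × K × Module.Dual K S × Module.Dual K S) :=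
    LinearMap.prod ((B.flip u0).comp (LinearMap.applyₗ u0))
      (LinearMap.prod ((B.flip (e c2)).comp (LinearMap.applyₗ (e c1)))
        (LinearMap.prod ((B.flip c2).comp ((LinearMap.applyₗ c1).comp D))
          (LinearMap.prod (((Submodule.dualRestrict S).comp B).comp ((LinearMap.applyₗ c1).comp D))
            (((Submodule.dualRestrict S).comp B).comp ((LinearMap.applyₗ c2).comp D)))))
  have hg : ∀ x, g x = 0 → B (x u0) u0 = 0 ∧ B (x (e c1)) (e c2) = 0 ∧ B (D x c1) c2 = 0 ∧
      (∀ k ∈ S, B (D x c1) k = 0) ∧ (∀ k ∈ S, B (D x c2) k = 0) := by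
    intro x hx
    have h1 := congrArg Prod.fst hx
    have hx2 := congrArg Prod.snd hx
    have h2 := congrArg Prod.fst hx2
    have hx3 := congrArg Prod.snd hx2
    have h3 := congrArg Prod.fst hx3
    have hx4 := congrArg Prod.snd hx3
    have h4 := congrArg Prod.fst hx4
    have h5 := congrArg Prod.snd hx4
    refine ⟨h1, h2, h3, ?_, ?_⟩
    · intro k hk
      exact congrArg (fun φ : Module.Dual K S => φ ⟨k, hk⟩) h4
    · intro k hk
      exact congrArg (fun φ : Module.Dual K S => φ ⟨k, hk⟩) h5
  have hfin : finrank K (K × K × K × Module.Dual K S × Module.Dual K S) = 11 := by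
    simp only [Module.finrank_prod, Module.finrank_self, Subspace.dual_finrank_eq]
    show 1 + (1 + (1 + (finrank K ↥(M ⊓ LinearMap.ker e) + finrank K ↥(M ⊓ LinearMap.ker e)))) = 11
    rw [hK]
  rw [← hfin]
  apply finrank_map_le W D g
  intro x hxW hx
  obtain ⟨c, hc⟩ := hW x hxW
  obtain ⟨g1, g2, g3, g4, g5⟩ := hg x hx
  have hc0 : c = 0 := by
    rw [hc] at g1
    exact (mul_eq_zero.1 g1).resolve_right hu0
  -- values on the range
  have hgam : ∀ u w, B (x (e u)) (e w) = B (x (e w)) (e u) := by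
    intro u w
    have h := B_x_symm B Q hQ hc (e u) (e w)
    rw [hc0, zero_mul] at h
    exact CharTwo.add_eq_zero.1 h
  have hgam0 : ∀ u, B (x (e u)) (e u) = 0 := by
    intro u
    rw [hc, hc0, zero_mul]
  have hval : ∀ u w, B (D x u) (e w) = B (x (e u)) (e w) := fun u w =>
    B_D_fix B i z hi hz hBi D hD x u (e w) (hee w)
  have r11 : B (x (e c1)) (e c1) = 0 := hgam0 c1
  have r22 : B (x (e c2)) (e c2) = 0 := hgam0 c2
  have r21 : B (x (e c2)) (e c1) = 0 := by rw [hgam]; exact g2
  have hR1 : ∀ w, B (D x c1) (e w) = 0 := by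
    intro w
    obtain ⟨s, t, hst⟩ := hspan w
    rw [hval, hst]
    simp only [map_add, map_smul, r11, g2, smul_zero, add_zero]
  have hR2 : ∀ w, B (D x c2) (e w) = 0 := by
    intro w
    obtain ⟨s, t, hst⟩ := hspan w
    rw [hval, hst]
    simp only [map_add, map_smul, r21, r22, smul_zero, add_zero]
  -- decomposition of vectors
  have hdec : ∀ v, ∃ s t : K, ∃ k, e k = 0 ∧ v = s • c1 + t • c2 + k := by
    intro v
    obtain ⟨s, t, hst⟩ := hspan v
    refine ⟨s, t, v - (s • c1 + t • c2), ?_, by abel⟩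
    rw [map_sub, map_add, map_smul, map_smul, hst, sub_self]
  have hdec2 : ∀ k, e k = 0 → ∃ w, ∃ m ∈ S, k = e w + m := by
    intro k hk
    have : k ∈ LinearMap.range e ⊔ (M ⊓ LinearMap.ker e) := by rw [hsup]; exact hk
    obtain ⟨y, ⟨w, rfl⟩, m, hm, rfl⟩ := Submodule.mem_sup.1 this
    exact ⟨w, m, hm, rfl⟩
  have hself := B_D_self B Q i z hi hz hBi hQz D hD hc
  have hsym := B_D_symm B Q i z hi hz hBi hQz D hD hc
  have hk1 : ∀ k, e k = 0 → B (D x c1) k = 0 := by
    intro k hk
    obtain ⟨w, m, hm, rfl⟩ := hdec2 k hk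
    rw [map_add, hR1, g4 m hm, add_zero]
  have hk2 : ∀ k, e k = 0 → B (D x c2) k = 0 := by
    intro k hk
    obtain ⟨w, m, hm, rfl⟩ := hdec2 k hk
    rw [map_add, hR2, g5 m hm, add_zero]
  have g3' : B (D x c2) c1 = 0 := by rw [hsym]; exact g3
  have a1 : ∀ v, B (D x c1) v = 0 := by
    intro v
    obtain ⟨s, t, k, hk, rfl⟩ := hdec v
    simp only [map_add, map_smul, hself, g3, hk1 k hk, smul_zero, add_zero]
  have a2 : ∀ v, B (D x c2) v = 0 := by
    intro v
    obtain ⟨s, t, k, hk, rfl⟩ := hdec v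
    simp only [map_add, map_smul, hself, g3', hk2 k hk, smul_zero, add_zero]
  ext u
  apply hn.1
  intro v
  obtain ⟨s, t, k, hk, rfl⟩ := hdec u
  obtain ⟨s', t', k', hk', rfl⟩ := hdec v
  simp only [map_add, map_smul, LinearMap.add_apply, LinearMap.smul_apply, a1, a2, smul_zero,
    zero_add, add_zero]
  rw [hsym k c1, hsym k c2, a1, a2, B_D_fix_fix B i z hi hz hBi D hD x k k' hk hk']
  simp

include hB hQ hi hz hBi hQz hD hW in
/-- `z` is free on `U`. -/
theorem z_free [FiniteDimensional K U] (hU : finrank K U = 8) (hn : B.Nondegenerate)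
    (h12 : 12 ≤ finrank K (W.map D)) :
    finrank K (LinearMap.range (z + 1 : U →ₗ[K] U)) = 4 := by
  obtain ⟨m, hm⟩ := even_rank B hB i z hi hz hBi hn
  have hle : LinearMap.range (z + 1 : U →ₗ[K] U) ≤ LinearMap.ker (z + 1 : U →ₗ[K] U) := by
    rintro _ ⟨x, rfl⟩
    exact eta_eta (K := K) z hz x
  have h1 := Submodule.finrank_mono hle
  have h2 := LinearMap.finrank_range_add_finrank_ker (z + 1 : U →ₗ[K] U)
  have h3 : m ≠ 0 := by
    rintro rfl
    have h4 : LinearMap.range (z + 1 : U →ₗ[K] U) = ⊥ := Submodule.finrank_eq_zero.1 hm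
    have h5 : (z + 1 : U →ₗ[K] U) = 0 := LinearMap.range_eq_bot.1 h4
    have h6 : ∀ u, z u = u := by
      intro u
      have h7 : z u + u = 0 := congrArg (fun f : U →ₗ[K] U => f u) h5
      exact add_right_cancel (h7.trans (add_self' (K := K) u).symm)
    have h8 : D = 0 := by
      ext x u
      rw [hD, h6, h6]
      exact add_self' (K := K) _
    rw [h8, Submodule.map_zero, finrank_bot] at h12
    omega
  have h4 : m ≠ 1 := by
    rintro rfl
    have := rank_two B Q hQ i z hi hz hBi hQz D hD W hW hU hn (by omega)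
    omega
  omega

end Main

end Cfsg.Agent.H736.L34
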