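import Cfsg.Agent.H198.L34.HTwentyB
import Cfsg.Agent.H929.L34.NotFree

/-!
# S5917, type D: `z` is free on the 8-dimensional modules, from the trace only (helper736)

On helper198's structure `Fr`: if the image of the trace of the quaternion group on `L₀` has dimension at least 3 then
`z` is free on each of the three modules (`exists_free`), and if moreover `(z + 1) L₀` has dimension at least 12 then the
fixed space of `z` on `L₀` (of dimension 32) has dimension 20 (`twenty_tr`).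
-/

set_option autoImplicit false
set_option linter.unusedSectionVars false

namespace Cfsg.Agent.H736.L34

open Module Cfsg.Agent.H633.L34.Psi Cfsg.Agent.H400.L34.QFree Cfsg.Agent.H940.L34 Cfsg.Agent.H198.L34

variable {K : Type*} [Field K] [CharP K 2] {L M : Type*} [AddCommGroup L] [Module K L]
  [AddCommGroup M] [Module K M]

/-- the trace as a linear map -/
def trl (i j : L →ₗ[K] L) : L →ₗ[K] L :=
  LinearMap.id + i ∘ₗ i + (i + i ∘ₗ i ∘ₗ i) + (j + i ∘ₗ i ∘ₗ j) + (i ∘ₗ j + i ∘ₗ i ∘ₗ i ∘ₗ j)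

omit [CharP K 2] in
theorem trl_apply (i j : L →ₗ[K] L) (x : L) : trl i j x = TrL i j x := rfl

section core

variable {L0 D : Submodule K L} {rho : L →ₗ[K] M →ₗ[K] M} {b : M →ₗ[K] M →ₗ[K] K} {Q : M → K}
  {c : L → K} {nw : Fin 8 → Fin 8} {lam : Fin 8 → L → K} {i j : L →ₗ[K] L}

/-- **the rank of `z + 1`** on one module, from the trace -/
theorem rank_core [FiniteDimensional K M] (hM : finrank K M = 8) (B : Blk L0 D rho b Q c nw lam) {pi pj : M →ₗ[K] M}
    (hq : Q8 pi pj (pi ∘ₗ pi)) (qi : ∀ v, Q (pi v) = Q v) (qj : ∀ v, Q (pj v) = Q v)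
    (htr : ∀ x ∈ L0, rho (TrL i j x) = trQ pi pj (pi ∘ₗ pi) (rho x))
    (h3 : 3 ≤ finrank K ((L0.map (trl i j)).map rho)) : finrank K (LinearMap.range (pi ∘ₗ pi + 1)) = 4 := by
  obtain ⟨x0, hx0, hc0⟩ := B.x0
  let B' : LinearMap.BilinForm K M := (c x0)⁻¹ • (b ∘ₗ rho x0)
  let q : QuadraticForm K M := B'.toQuadraticMap
  have hqQ : ∀ v, q v = Q v := by
    intro v
    show (c x0)⁻¹ • (b (rho x0 v) v) = Q v
    rw [B.hc x0 hx0, smul_eq_mul, ← mul_assoc, inv_mul_cancel₀ hc0, one_mul]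
  have hpol : ∀ v w, QuadraticMap.polar q v w = b v w := by
    intro v w
    unfold QuadraticMap.polar
    rw [hqQ, hqQ, hqQ, B.pol]
    ring
  have hQuat : Cfsg.Agent.H929.L34.Quat (K := K) pi pj (pi ∘ₗ pi) := by
    refine ⟨fun v => rfl, fun v => hq.jj v, fun v => ?_, hq.zz⟩
    have h1 := hq.ji v
    have h2 := congrArg (pi ∘ₗ pi) h1
    rw [hq.zz] at h2
    exact h2.symm
  have hres := Cfsg.Agent.H929.L34.Quat.rank_four_of_tr (q := q) hM
    (fun x hx => B.nd x fun w => by rw [B.sym, ← hpol]; exact hx w) hQuat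
    (fun u => by rw [hqQ, hqQ, qi]) (fun u => by rw [hqQ, hqQ, qj]) (L0.map rho) ?_ ?_
  · rwa [add_comm] at hres
  · rintro _ ⟨x, hx, rfl⟩
    refine ⟨c x, fun u => ?_⟩
    rw [hpol, hqQ]
    exact B.hc x hx u
  · refine h3.trans (Submodule.finrank_mono ?_)
    rintro _ ⟨_, ⟨x, hx, rfl⟩, rfl⟩
    refine ⟨rho x, ⟨x, hx, rfl⟩, ?_⟩
    rw [trl_apply, htr x hx, hQuat.tr_apply]
    rfl

end core

section

variable [IsAlgClosed K] [FiniteDimensional K L] [FiniteDimensional K M]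
  {L0 D : Submodule K L} {rho : Fin 3 → L →ₗ[K] M →ₗ[K] M} {b : M →ₗ[K] M →ₗ[K] K} {Q : M → K}
  {c : Fin 3 → L → K} {nw : Fin 8 → Fin 8} {lam : Fin 3 → Fin 8 → L → K} {i j : L →ₗ[K] L} {si sj : Fin 8 → Fin 8}
  {Gi Gj : Fin 3 → Fin 8 → M →ₗ[K] M}

/-- the trace lies in `D` -/
theorem Fr.tr_mem (h : Fr L0 D rho b Q c nw lam i j si sj Gi Gj) {x : L} (hx : x ∈ L0) : TrL i j x ∈ D := by
  have h1 := h.zD x hx
  have h2 := h.zD _ ((h.Aj 0).m0 x hx)
  have h3 := (h.Ai 0).mD _ h1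
  have h4 := (h.Ai 0).mD _ h2
  have e : TrL i j x = (i (i x) + x) + i (i (i x) + x) + (i (i (j x)) + j x) + i (i (i (j x)) + j x) := by
    unfold TrL
    simp only [map_add]
    abel
  rw [e]
  exact D.add_mem (D.add_mem (D.add_mem h1 h3) h2) h4

/-- the representation is injective on the traces -/
theorem Fr.tr_inj (h : Fr L0 D rho b Q c nw lam i j si sj Gi Gj) (X : Fin 3) {x : L} (hx : x ∈ L0)
    (h0 : rho X (TrL i j x) = 0) : TrL i j x = 0 := by
  have hnt : Nontrivial M := nontrivial_of_finrank_pos (R := K) (by rw [h.hM]; norm_num)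
  obtain ⟨X', hX'⟩ := (by decide : ∀ X : Fin 3, ∃ X', X ≠ X') X
  have hD := Fr.tr_mem h hx
  have g1 : ∀ v, rho X (TrL i j x) v = 0 := fun v => by rw [h0]; rfl
  obtain ⟨ν, hν⟩ := h.scal X X' _ hD g1
  obtain ⟨_, _, P'⟩ := h.exists_ps X'
  have g2 : ∀ v, rho X' (TrL i j x) v = 0 := by
    intro v
    rw [hν, scalar_nil hν (P'.nil x hx), zero_smul]
  exact h.faith X X' hX' _ hD g1 g2

/-- **`z` is free** : all the data on one module -/
theorem Fr.exists_free (h : Fr L0 D rho b Q c nw lam i j si sj Gi Gj) (h3 : 3 ≤ finrank K (L0.map (trl i j)))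
    (X : Fin 3) : ∃ pi pj : M →ₗ[K] M, Ps L0 D (rho X) b Q (c X) i j pi pj ∧ Q8 pi pj (pi ∘ₗ pi) ∧
      (∀ v, Q (pi v) = Q v) ∧ (∀ v, Q (pj v) = Q v) ∧ Fam L0 (rho X) (lam X) i si pi ∧
      Fam L0 (rho X) (lam X) j sj pj ∧ (∀ x ∈ L0, rho X (TrL i j x) = trQ pi pj (pi ∘ₗ pi) (rho X x)) ∧
      finrank K (LinearMap.range (pi ∘ₗ pi + 1)) = 4 := by
  have hsq : ∀ a : K, ∃ r, r * r = a := fun a => by
    obtain ⟨r, hr⟩ := IsAlgClosed.exists_pow_nat_eq a (n := 2) (by norm_num)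
    exact ⟨r, by rw [← pow_two, hr]⟩
  obtain ⟨pi, pj, hq, qi, qj, fi, fj, o1, htr, hn⟩ :=
    main' h.hM hsq (h.B X) (h.Ai X) (h.Aj X) h.four h.jj h.ji h.si2 h.sj2
  have hB := h.B X
  have iso : ∀ p : M →ₗ[K] M, (∀ v, Q (p v) = Q v) → ∀ u w, b (p u) (p w) = b u w := by
    intro p hp u w
    have h1 := hB.pol (p u) (p w)
    rw [← map_add, hp, hp, hp, hB.pol] at h1
    exact (add_left_cancel h1).symm
  have p4 : ∀ v, pi (pi (pi (pi v))) = v := hq.zz
  have hPs : Ps L0 D (rho X) b Q (c X) i j pi pj := by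
    refine ⟨?_, ?_, iso pi qi, iso pj qj, ?_, ?_, ?_, hn⟩
    · refine ⟨fun v => ?_, p4, fun v => ?_⟩
      · rw [hq.jj]; rfl
      · have h1 : pj (pi v) = pi (pi (pi (pj v))) := hq.ji v
        rw [h1, p4]
    · refine ⟨fun v hv => hB.nd v fun w => by rw [hB.sym]; exact hv w, hB.pol, hq.zz, fun u => ?_⟩
      rw [LinearMap.comp_apply, qi, qi]
    · intro x hx v
      have h1 := (fi.comp fi (h.Ai X).m0) 0 x hx (pi (pi v))
      change rho X (i (i x)) (pi (pi (pi (pi v)))) = pi (pi (rho X x (pi (pi v)))) +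
        (lam X 0 x + lam X (si (si 0)) (i (i x))) • pi (pi (pi (pi v))) at h1
      rw [p4, h.si2, o1 x hx, hB.lam0 x hx, zero_add, h.key X x hx] at h1
      exact h1
    · intro d hd v
      rw [fi 0 d (hB.DL hd) v]
      change _ + (lam X 0 d + lam X (si 0) (i d)) • _ = _
      rw [hB.lamD 0 d hd, hB.lamD _ _ ((h.Ai X).mD d hd), add_zero, zero_smul, add_zero]
    · intro d hd v
      rw [fj 0 d (hB.DL hd) v]
      change _ + (lam X 0 d + lam X (sj 0) (j d)) • _ = _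
      rw [hB.lamD 0 d hd, hB.lamD _ _ ((h.Aj X).mD d hd), add_zero, zero_smul, add_zero]
  refine ⟨pi, pj, hPs, hq, qi, qj, fi, fj, htr, rank_core h.hM hB hq qi qj htr ?_⟩
  have hinj : Function.Injective ((rho X).domRestrict (L0.map (trl i j))) := by
    rw [injective_iff_map_eq_zero]
    rintro ⟨_, ⟨x, hx, rfl⟩⟩ h0
    exact Subtype.ext (Fr.tr_inj h X hx h0)
  have h4 := LinearMap.finrank_range_of_inj hinj
  rw [LinearMap.range_domRestrict] at h4
  omega

/-- **`finrank = 20`** -/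
theorem Fr.twenty_tr (h : Fr L0 D rho b Q c nw lam i j si sj Gi Gj) (h3 : 3 ≤ finrank K (L0.map (trl i j)))
    (h12 : 12 ≤ finrank K (L0.map (i ∘ₗ i + 1))) (h32 : finrank K L0 = 32) :
    finrank K ↥(L0 ⊓ LinearMap.ker (i ∘ₗ i + 1)) = 20 := by
  obtain ⟨pi, pj, P, -, -, -, -, -, -, hf⟩ := Fr.exists_free h h3 0
  obtain ⟨pi', pj', P', -, -, -, -, -, -, hf'⟩ := Fr.exists_free h h3 1
  have hc4 : ∃ u, b u (pi' (pi' u)) ≠ 0 := by
    refine exists_c4 h.hM P'.ql (fun v hv => ?_) P'.qs P'.bi P'.bj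
    have h1 : LinearMap.range (pi' ∘ₗ pi' + 1) = LinearMap.ker (pi' ∘ₗ pi' + 1) := by
      apply Submodule.eq_of_le_of_finrank_eq
      · rintro _ ⟨x, rfl⟩
        have e1 : ∀ u : M, u + u = 0 := fun u => by
          have h4 : (2 : K) • u = 0 := by rw [show (2 : K) = 0 from CharP.cast_eq_zero K 2, zero_smul]
          rwa [two_smul] at h4
        rw [LinearMap.mem_ker]
        simp only [LinearMap.add_apply, Module.End.one_apply, LinearMap.comp_apply, map_add, P'.ql.four]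
        rw [show x + pi' (pi' x) + (pi' (pi' x) + x) = (x + x) + (pi' (pi' x) + pi' (pi' x)) by abel, e1, e1, add_zero]
      · have h4 := LinearMap.finrank_range_add_finrank_ker (pi' ∘ₗ pi' + 1)
        rw [h.hM] at h4
        omega
    have e1 : v + v = 0 := by
      have h4 : (2 : K) • v = 0 := by rw [show (2 : K) = 0 from CharP.cast_eq_zero K 2, zero_smul]
      rwa [two_smul] at h4
    have h2 : v ∈ LinearMap.ker (pi' ∘ₗ pi' + 1) := by
      rw [LinearMap.mem_ker]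
      change pi' (pi' v) + v = 0
      rw [hv, e1]
    rw [← h1] at h2
    obtain ⟨w, hw⟩ := h2
    exact ⟨w, by rw [← hw, add_comm]; rfl⟩
  let f : L0 →ₗ[K] L := (i ∘ₗ i + 1).domRestrict L0
  have hfx : ∀ x : L0, f x = i (i x.1) + x.1 := fun x => rfl
  have hk : (LinearMap.ker f).map L0.subtype = L0 ⊓ LinearMap.ker (i ∘ₗ i + 1) := by
    ext x
    constructor
    · rintro ⟨y, hy, rfl⟩
      exact ⟨y.2, hy⟩
    · rintro ⟨h1, h2⟩
      exact ⟨⟨x, h1⟩, h2, rfl⟩
  have hk' : finrank K ↥(L0 ⊓ LinearMap.ker (i ∘ₗ i + 1)) = finrank K (LinearMap.ker f) := by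
    rw [← hk]
    exact Submodule.finrank_map_subtype_eq _ _
  have hrn := LinearMap.finrank_range_add_finrank_ker f
  have hr12 : 12 ≤ finrank K (LinearMap.range f) := by
    have e1 : LinearMap.range f = L0.map (i ∘ₗ i + 1) := LinearMap.range_domRestrict _ _
    rw [e1]
    exact h12
  -- the upper bound
  have hzL : ∀ x ∈ L0, (i ∘ₗ i) x ∈ L0 := fun x hx => (h.Ai 0).m0 _ ((h.Ai 0).m0 x hx)
  let z : L0 →ₗ[K] L0 := (i ∘ₗ i).restrict hzL
  have hzx : ∀ x : L0, ((z x : L0) : L) = i (i x.1) := fun x => rfl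
  have h5 := fix_le (L := L0) P.qs P'.qs h.hM hf hc4 z ((rho 0).comp L0.subtype) ((rho 1).comp L0.subtype)
    (fun x => c 0 x.1) (fun x => c 1 x.1) (fun x u => (h.B 0).hc x.1 x.2 u) (fun x u => (h.B 1).hc x.1 x.2 u)
    (fun x u => P.key x.1 x.2 u) (fun x u => P'.key x.1 x.2 u)
    (fun x hx => h.scal 0 1 _ (h.zD x.1 x.2) fun v => congrArg (fun T : Module.End K M => T v) hx)
    (fun x hx hx' => Subtype.ext (h.faith 0 1 (by decide) _ (h.zD x.1 x.2)
      (fun v => congrArg (fun T : Module.End K M => T v) hx) (fun v => congrArg (fun T : Module.End K M => T v) hx')))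
  have h6 : LinearMap.ker (z + 1) = LinearMap.ker f := by
    ext x
    rw [LinearMap.mem_ker, LinearMap.mem_ker, hfx]
    constructor
    · intro h1
      exact congrArg Subtype.val h1
    · intro h1
      exact Subtype.ext h1
  rw [h6] at h5
  omega

end

end Cfsg.Agent.H736.L34
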